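import Cfsg.Agent.OD.Pre
import Cfsg.Agent.H6.TCTop
import Cfsg.Agent.H6.HST4.C
set_option autoImplicit false
set_option maxRecDepth 100000
set_option Elab.async false
set_option linter.all false
namespace CfH6.HST4
open CfH6
theorem p0 : C.OkL 256 4608 := C.okL_of 256 34 0 4608 (by decide) (by decide +kernel)
theorem p1 : C.OkL 4608 8704 := C.okL_of 4608 32 0 8704 (by decide) (by decide +kernel)
theorem p2 : C.OkL 8704 12416 := C.okL_of 8704 29 0 12416 (by decide) (by decide +kernel)
theorem p3 : C.OkL 12416 15872 := C.okL_of 12416 27 0 15872 (by decide) (by decide +kernel)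
theorem p4 : C.OkL 15872 19328 := C.okL_of 15872 27 0 19328 (by decide) (by decide +kernel)
theorem p5 : C.OkL 19328 22400 := C.okL_of 19328 24 0 22400 (by decide) (by decide +kernel)
theorem p6 : C.OkL 22400 25344 := C.okL_of 22400 23 0 25344 (by decide) (by decide +kernel)
theorem p7 : C.OkL 25344 28544 := C.okL_of 25344 25 0 28544 (by decide) (by decide +kernel)
theorem p8 : C.OkL 28544 31744 := C.okL_of 28544 25 0 31744 (by decide) (by decide +kernel)
theorem p9 : C.OkL 31744 34944 := C.okL_of 31744 25 0 34944 (by decide) (by decide +kernel)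
theorem p10 : C.OkL 34944 38272 := C.okL_of 34944 26 0 38272 (by decide) (by decide +kernel)
theorem p11 : C.OkL 38272 41728 := C.okL_of 38272 27 0 41728 (by decide) (by decide +kernel)
theorem p12 : C.OkL 41728 42256 := C.okL_of 41728 4 16 42256 (by decide) (by decide +kernel)
theorem p13 : C.OkR 42256 45200 := C.okR_of 42256 23 0 45200 (by decide) (by decide +kernel)
theorem p14 : C.OkR 45200 48016 := C.okR_of 45200 22 0 48016 (by decide) (by decide +kernel)
theorem p15 : C.OkR 48016 50704 := C.okR_of 48016 21 0 50704 (by decide) (by decide +kernel)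
theorem p16 : C.OkR 50704 52639 := C.okR_of 50704 15 15 52639 (by decide) (by decide +kernel)
end CfH6.HST4
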